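import Cfsg.Agent.H806.KB.SpRow
import Cfsg.Agent.H418.KB.Core

/-!
# S4822, task KB3: `Core` from helper418's minimal pair and the conjugacy `y ~ y^q`, `y ~ y⁻¹` (helper806)
-/

set_option autoImplicit false

open Cfsg Module Subgroup

namespace Cfsg.Agent.H806.KB

open Cfsg.Agent.H418.KB

variable {F V : Type*} [Field F] [Fintype F] [AddCommGroup V] [Module F V] [FiniteDimensional F V] {p : ℕ}
  {B : V →ₗ[F] V →ₗ[F] F} {G : Subgroup (V ≃ₗ[F] V)}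

theorem exists_core_of (hp : p.Prime) (h2 : 2 < p) (hpF : ¬ p ∣ Fintype.card F) (hG : Spl B G)
    (hq : ∀ y ∈ G, y ^ p = 1 → ∃ c ∈ G, c * y * c⁻¹ = y ^ Fintype.card F ∧ ∀ v, y v = v → c v = v)
    (hi : ∀ y ∈ G, y ^ p = 1 → ∃ c ∈ G, c * y * c⁻¹ = y⁻¹ ∧ ∀ v, y v = v → c v = v)
    {R : Subgroup (V ≃ₗ[F] V)} (hRG : R ≤ G) (hR : IsPGroup p R) (hnc : ¬ IsCyclic R) : ∃ x y, Core p G x y := by
  have hpF0 : (p : F) ≠ 0 := p_ne hp hpF
  have hne : NeZero ((p : ℕ) : F) := ⟨hpF0⟩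
  have : NeZero p := ⟨hp.ne_zero⟩
  have : FiniteDimensional F (CyclotomicField p F) := IsCyclotomicExtension.finiteDimensional {p} F _
  have hζ := IsCyclotomicExtension.zeta_spec p F (CyclotomicField p F)
  obtain ⟨x, y, hxy, hcyc⟩ := exists_min_pair hp h2 hpF hζ hG hRG hR hnc
  have htr : ∀ c : V ≃ₗ[F] V, (∀ v, y v = v → c v = v) → ∀ v, c (x v - v) = x v - v := fun c hc v => hc _ (hxy.triv v)
  obtain ⟨c, hc, hcy, hcv⟩ := hq y hxy.my hxy.oy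
  obtain ⟨d, hd, hdy, hdv⟩ := hi y hxy.my hxy.oy
  exact ⟨x, y,
    { hx := hxy.mx
      hy := hxy.my
      xp := hxy.ox
      x1 := hxy.nx
      yp := hxy.oy
      y1 := hxy.ny
      yx := hxy.triv
      fus := fun g i hg => fusion hp hpF hζ hxy.ox hxy.nx hxy.hom hg
      cyc := hcyc
      c1 := ⟨c, hc, htr c hcv, hcy⟩
      c2 := ⟨d, hd, htr d hdv, hdy⟩ }⟩

end Cfsg.Agent.H806.KB
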